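import Mathlib
import Cfsg.Prelude.Def_Transfer
import Cfsg.Agent.S0081

set_option autoImplicit false
open Cfsg

namespace Cfsg.Agent.Helper13.S4172c

/-- Relative form of Tate's theorem: if `P` normalises `A` and `A ⊓ P ≤ Φ(P)`, then `A` has a
normal `p`-complement `M`. -/
theorem tate_rel {G : Type*} [Group G] [Finite G] (p : ℕ) [Fact p.Prime] (P : Sylow p G)
    (A : Subgroup G) (hPA : (P : Subgroup G) ≤ Subgroup.normalizer (A : Set G))
    (h : A ⊓ (P : Subgroup G) ≤ (frattini ↥(P : Subgroup G)).map (P : Subgroup G).subtype) :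
    ∃ M : Subgroup G, M ≤ A ∧ A ≤ Subgroup.normalizer (M : Set G) ∧ (Nat.card ↥M).Coprime p ∧
      ∀ a ∈ A, ∃ k : ℕ, a ^ p ^ k ∈ M := by
  classical
  obtain ⟨K, hK⟩ : ∃ K : Subgroup G, K = A ⊔ (P : Subgroup G) := ⟨_, rfl⟩
  have hAK : A ≤ K := hK ▸ le_sup_left
  have hPK : (P : Subgroup G) ≤ K := hK ▸ le_sup_right
  have hKN : K ≤ Subgroup.normalizer (A : Set G) := hK ▸ sup_le Subgroup.le_normalizer hPA
  haveI hAn : (A.subgroupOf K).Normal := by
    constructor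
    intro n hn g
    rw [Subgroup.mem_subgroupOf] at hn ⊢
    have h1 := hKN g.2
    rw [Subgroup.mem_normalizer_iff] at h1
    exact (h1 n.1).mp hn
  obtain ⟨PK, hPKc⟩ : ∃ PK : Sylow p ↥K, (PK : Subgroup ↥K) = (P : Subgroup G).subgroupOf K :=
    ⟨P.subtype hPK, Sylow.coe_subtype ..⟩
  have hmemPK : ∀ z : ↥K, z ∈ (PK : Subgroup ↥K) ↔ (z : G) ∈ (P : Subgroup G) := by
    intro z
    rw [hPKc, Subgroup.mem_subgroupOf]
  have hfr : A.subgroupOf K ⊓ (PK : Subgroup ↥K) ≤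
      (frattini ↥(PK : Subgroup ↥K)).map (PK : Subgroup ↥K).subtype := by
    intro x hx
    rw [Subgroup.mem_inf] at hx
    obtain ⟨hxA, hxP⟩ := hx
    have hxP' : (x : G) ∈ (P : Subgroup G) := (hmemPK x).mp hxP
    have hxA' : (x : G) ∈ A := Subgroup.mem_subgroupOf.mp hxA
    obtain ⟨y, hy, hyx⟩ := h ⟨hxA', hxP'⟩
    let e : ↥(P : Subgroup G) →* ↥(PK : Subgroup ↥K) :=
      { toFun := fun z => ⟨⟨z.1, hPK z.2⟩, (hmemPK _).mpr z.2⟩
        map_one' := rfl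
        map_mul' := fun _ _ => rfl }
    have hes : Function.Surjective e := by
      rintro ⟨⟨z, hzK⟩, hz⟩
      exact ⟨⟨z, (hmemPK ⟨z, hzK⟩).mp hz⟩, rfl⟩
    have h2 := frattini_le_comap_frattini_of_surjective hes hy
    refine ⟨e y, h2, ?_⟩
    apply Subtype.ext
    exact hyx
  obtain ⟨R, M', hM'n, hM'c⟩ := Cfsg.Agent.S0081.result PK (A.subgroupOf K) hfr
  haveI := hM'n
  have hmemM : ∀ x : G, x ∈ (M'.map (A.subgroupOf K).subtype).map K.subtype ↔
      ∃ z ∈ M', ((z : ↥K) : G) = x := by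
    intro x
    constructor
    · rintro ⟨y, ⟨z, hz, rfl⟩, rfl⟩
      exact ⟨z, hz, rfl⟩
    · rintro ⟨z, hz, rfl⟩
      exact ⟨_, ⟨z, hz, rfl⟩, rfl⟩
  have hlift : ∀ a ∈ A, ∃ a' : ↥(A.subgroupOf K), ((a' : ↥K) : G) = a := by
    intro a ha
    exact ⟨⟨⟨a, hAK ha⟩, Subgroup.mem_subgroupOf.mpr ha⟩, rfl⟩
  have hconj : ∀ a ∈ A, ∀ x ∈ (M'.map (A.subgroupOf K).subtype).map K.subtype,
      a * x * a⁻¹ ∈ (M'.map (A.subgroupOf K).subtype).map K.subtype := by
    intro a ha x hx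
    obtain ⟨a', rfl⟩ := hlift a ha
    obtain ⟨z, hz, rfl⟩ := (hmemM x).mp hx
    exact (hmemM _).mpr ⟨a' * z * a'⁻¹, hM'n.conj_mem z hz a', by simp⟩
  refine ⟨(M'.map (A.subgroupOf K).subtype).map K.subtype, ?_, ?_, ?_, ?_⟩
  · intro x hx
    obtain ⟨z, hz, rfl⟩ := (hmemM x).mp hx
    exact Subgroup.mem_subgroupOf.mp z.2
  · intro a ha
    rw [Subgroup.mem_normalizer_iff]
    intro x
    constructor
    · exact hconj a ha x
    · intro hx
      have h3 := hconj a⁻¹ (A.inv_mem ha) _ hx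
      simpa [mul_assoc] using h3
  · have hc1 : Nat.card ↥((M'.map (A.subgroupOf K).subtype).map K.subtype) = Nat.card ↥M' := by
      rw [Subgroup.card_map_of_injective K.subtype_injective,
        Subgroup.card_map_of_injective (A.subgroupOf K).subtype_injective]
    rw [hc1, ← hM'c.index_eq_card]
    rw [Nat.coprime_comm]
    exact (Nat.Prime.coprime_iff_not_dvd (Fact.out : p.Prime)).mpr R.not_dvd_index
  · intro a ha
    obtain ⟨a', rfl⟩ := hlift a ha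
    obtain ⟨k, hk⟩ := IsPGroup.iff_card.mp R.isPGroup'
    refine ⟨k, (hmemM _).mpr ⟨a' ^ p ^ k, ?_, by simp⟩⟩
    have h4 := Subgroup.pow_index_mem M' a'
    rw [hM'c.symm.index_eq_card, hk] at h4
    exact h4

end Cfsg.Agent.Helper13.S4172c
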